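import Cfsg.Agent.Lib.MinimalNonCA.RankBig
import Cfsg.Agent.Lib.GW.Reduction
import Cfsg.Agent.Lib.TwoGroups.Basic
import Cfsg.Agent.Lib.TwoGroups.RankOne
import Cfsg.Agent.S0111

/-!
Perfect groups all of whose proper subgroups have abelian centralisers of noncentral elements, with
nonabelian Sylow 2-subgroups modulo the centre: these are dihedral, and the lifts of two commuting
involutions of the quotient do not commute.
-/

set_option autoImplicit false
set_option linter.style.haveILetI false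
set_option linter.unusedSectionVars false

namespace CfsgLib.MinimalNonCA

open Subgroup

variable {L : Type*} [Group L] [Finite L]

local notation "Q" => L ⧸ Subgroup.center L
local notation "pr" => QuotientGroup.mk' (Subgroup.center L)

/-- A lift of a central involution of the image of a Sylow subgroup. -/
structure CentralLift (S : Sylow 2 L) (t : L) : Prop where
  mem : t ∈ (S : Subgroup L)
  not_central : t ∉ Subgroup.center L
  sq : t * t ∈ Subgroup.center L
  comm : ∀ s ∈ (S : Subgroup L), pr s * pr t = pr t * pr s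

/-- The part of the Sylow subgroup centralising a given element, in the quotient. -/
def cutImage (S : Sylow 2 L) (t : L) : Subgroup Q :=
  ((S : Subgroup L) ⊓ Subgroup.centralizer ({t} : Set L)).map pr

theorem mem_cutImage {S : Sylow 2 L} {t s : L} (hs : s ∈ (S : Subgroup L)) :
    pr s ∈ cutImage S t ↔ s * t = t * s := by
  constructor
  · rintro ⟨a, ⟨-, ha⟩, hae⟩
    have hz : a⁻¹ * s ∈ Subgroup.center L := QuotientGroup.eq.1 hae
    have h1 : Commute (a * (a⁻¹ * s)) t :=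
      (show Commute a t from mem_centralizer_singleton_iff.1 ha).mul_left
        (mem_center_iff.1 hz t).symm
    rw [mul_inv_cancel_left] at h1
    exact h1
  · exact fun h => ⟨s, ⟨hs, mem_centralizer_singleton_iff.2 h⟩, rfl⟩

theorem cutImage_le (S : Sylow 2 L) (t : L) : cutImage S t ≤ (qSylow S : Subgroup Q) :=
  Subgroup.map_mono inf_le_left

section

variable (hp : commutator L = ⊤) (hca : ProperCA L) (S : Sylow 2 L) {a₀ b₀ : L}
  (ha₀ : a₀ ∈ (S : Subgroup L)) (hb₀ : b₀ ∈ (S : Subgroup L))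
  (hne₀ : QuotientGroup.mk' (Subgroup.center L) a₀ * QuotientGroup.mk' (Subgroup.center L) b₀ ≠
    QuotientGroup.mk' (Subgroup.center L) b₀ * QuotientGroup.mk' (Subgroup.center L) a₀)
include hp hca S ha₀ hb₀ hne₀

theorem exists_centralLift : ∃ t, CentralLift S t := by
  haveI : Fact (Nat.Prime 2) := ⟨Nat.prime_two⟩
  haveI : Nontrivial (qSylow S : Subgroup Q) := ⟨⟨pr a₀, pr_mem ha₀⟩, 1, fun e => hne₀ (by
    rw [show pr a₀ = 1 from congrArg Subtype.val e, one_mul, mul_one])⟩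
  haveI := (qSylow S).isPGroup'.center_nontrivial
  obtain ⟨z, hz⟩ := exists_prime_orderOf_dvd_card' (G := Subgroup.center (qSylow S : Subgroup Q)) 2 (by
    obtain ⟨k, hk⟩ := ((qSylow S).isPGroup'.to_subgroup
      (Subgroup.center (qSylow S : Subgroup Q))).exists_card_eq
    rw [hk]
    rcases k with _ | k
    · have := Finite.one_lt_card (α := Subgroup.center (qSylow S : Subgroup Q))
      omega
    · exact dvd_pow_self 2 (Nat.succ_ne_zero k))
  obtain ⟨t, ht, hte⟩ := (z.1.2 : ((z : (qSylow S : Subgroup Q)) : Q) ∈ (S : Subgroup L).map pr)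
  have ho : orderOf (pr t) = 2 := by rw [hte, Subgroup.orderOf_coe, Subgroup.orderOf_coe, hz]
  refine ⟨t, ht, fun e => ?_, (QuotientGroup.eq_one_iff _).1 ?_, fun s hs => ?_⟩
  · rw [show pr t = 1 from (QuotientGroup.eq_one_iff t).2 e, orderOf_one] at ho; omega
  · show pr (t * t) = 1
    rw [map_mul, ← pow_two, ← ho, pow_orderOf_eq_one]
  · rw [hte]
    exact congrArg Subtype.val (mem_center_iff.1 z.2 (⟨pr s, pr_mem hs⟩ : (qSylow S : Subgroup Q)))

variable {t : L} (ht : CentralLift S t)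
include ht

theorem centralizer_lift_comm {a b : L} (ha : a * t = t * a) (hb : b * t = t * b) : a * b = b * a := by
  by_contra hne
  have hW := le_centralizer_of_pair hca (wideCentralizer_ne_top hp ht.not_central)
    (centralizer_le_wideCentralizer t (mem_centralizer_singleton_iff.2 rfl))
    (centralizer_le_wideCentralizer t (mem_centralizer_singleton_iff.2 ha))
    (centralizer_le_wideCentralizer t (mem_centralizer_singleton_iff.2 hb)) ha hb hne
  refine ht.not_central (center_sylow_le hp hca S ha₀ hb₀ (fun e => hne₀ (by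
    rw [← map_mul, ← map_mul, e])) ht.mem fun s hs => ?_)
  exact mem_centralizer_singleton_iff.1 (hW (mem_centralizer_singleton_iff.2 (ht.comm s hs)))

theorem sq_central {s : L} (hs : s ∈ (S : Subgroup L)) (hst : s * t ≠ t * s) :
    s * s ∈ Subgroup.center L := by
  by_contra hc
  have hsW : s ∈ wideCentralizer t := mem_centralizer_singleton_iff.2 (ht.comm s hs)
  have hts := mem_centralizer_singleton_iff.1 (sq_mem_centralizer ht.sq hsW).1
  have hSne : (S : Subgroup L) ≠ ⊤ := fun e => by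
    haveI : Fact (Nat.Prime 2) := ⟨Nat.prime_two⟩
    haveI : (S : Subgroup L).Normal := by rw [e]; infer_instance
    haveI := S.isPGroup'.isNilpotent
    exact ht.not_central (le_center_of_isSolvable hca hp _ ht.mem)
  have hle := le_centralizer_of_pair hca hSne (x := s * s) (mul_mem hs hs) hs ht.mem
    (mul_assoc s s s).symm hts.symm hst
  exact hc (center_sylow_le hp hca S ha₀ hb₀ (fun e => hne₀ (by rw [← map_mul, ← map_mul, e]))
    (mul_mem hs hs) fun k hk => mem_centralizer_singleton_iff.1 (hle hk))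

theorem mul_self_of_not_mem {x : Q} (hx : x ∈ (qSylow S : Subgroup Q)) (hxA : x ∉ cutImage S t) :
    x * x = 1 := by
  obtain ⟨s, hs, rfl⟩ := (id hx : x ∈ (S : Subgroup L).map pr)
  rw [← map_mul]
  exact (QuotientGroup.eq_one_iff _).2 (sq_central hp hca S ha₀ hb₀ hne₀ ht hs
    (fun e => hxA ((mem_cutImage hs).2 e)))

theorem cutImage_comm {a b : Q} (ha : a ∈ cutImage S t) (hb : b ∈ cutImage S t) : a * b = b * a := by
  obtain ⟨x, ⟨-, hx⟩, rfl⟩ := ha
  obtain ⟨y, ⟨-, hy⟩, rfl⟩ := hb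
  rw [← map_mul, ← map_mul, centralizer_lift_comm hp hca S ha₀ hb₀ hne₀ ht
    (mem_centralizer_singleton_iff.1 hx) (mem_centralizer_singleton_iff.1 hy)]

theorem inverts {x a : Q} (hx : x ∈ (qSylow S : Subgroup Q)) (hxA : x ∉ cutImage S t)
    (ha : a ∈ cutImage S t) : x * a * x⁻¹ = a⁻¹ := by
  have h1 := mul_self_of_not_mem hp hca S ha₀ hb₀ hne₀ ht
    (mul_mem hx (cutImage_le S t ha)) (fun e => hxA (by simpa using mul_mem e (inv_mem ha)))
  have h2 := mul_self_of_not_mem hp hca S ha₀ hb₀ hne₀ ht hx hxA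
  calc x * a * x⁻¹ = (x * a * (x * a)) * a⁻¹ * (x * x)⁻¹ := by group
    _ = a⁻¹ := by rw [h1, h2]; group

theorem exists_sq_ne_one : ∃ a ∈ cutImage S t, a * a ≠ 1 := by
  by_contra hcon
  push Not at hcon
  have h : ∀ x ∈ (qSylow S : Subgroup Q), x * x = 1 := fun x hx => by
    by_cases hxA : x ∈ cutImage S t
    · exact hcon x hxA
    · exact mul_self_of_not_mem hp hca S ha₀ hb₀ hne₀ ht hx hxA
  apply hne₀
  have h1 := h _ (mul_mem (pr_mem ha₀) (pr_mem hb₀))
  calc pr a₀ * pr b₀ = (pr a₀ * pr b₀)⁻¹ := eq_inv_of_mul_eq_one_left h1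
    _ = pr b₀ * pr a₀ := by
      rw [mul_inv_rev, ← eq_inv_of_mul_eq_one_left (h _ (pr_mem ha₀)),
        ← eq_inv_of_mul_eq_one_left (h _ (pr_mem hb₀))]

theorem mul_mem_cutImage {x y : Q} (hx : x ∈ (qSylow S : Subgroup Q)) (hy : y ∈ (qSylow S : Subgroup Q))
    (hxA : x ∉ cutImage S t) (hyA : y ∉ cutImage S t) : x * y ∈ cutImage S t := by
  by_contra hxy
  obtain ⟨a, ha, ha2⟩ := exists_sq_ne_one hp hca S ha₀ hb₀ hne₀ ht
  refine ha2 (mul_eq_one_iff_eq_inv.2 ?_)
  have e1 := inverts hp hca S ha₀ hb₀ hne₀ ht (mul_mem hx hy) hxy ha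
  have e2 := inverts hp hca S ha₀ hb₀ hne₀ ht hy hyA ha
  have e3 := inverts hp hca S ha₀ hb₀ hne₀ ht hx hxA (inv_mem ha)
  rw [← e1]
  calc a = x * a⁻¹ * x⁻¹ := by rw [e3, inv_inv]
    _ = x * (y * a * y⁻¹) * x⁻¹ := by rw [e2]
    _ = _ := by group

theorem exists_not_mem : ∃ x ∈ (qSylow S : Subgroup Q), x ∉ cutImage S t := by
  by_contra hcon
  push Not at hcon
  exact hne₀ (cutImage_comm hp hca S ha₀ hb₀ hne₀ ht (hcon _ (pr_mem ha₀)) (hcon _ (pr_mem hb₀)))

theorem relIndex_cutImage : (cutImage S t).relIndex (qSylow S : Subgroup Q) = 2 := by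
  obtain ⟨x, hx, hxA⟩ := exists_not_mem hp hca S ha₀ hb₀ hne₀ ht
  rw [Subgroup.relIndex, Subgroup.index_eq_two_iff]
  refine ⟨⟨x, hx⟩, fun b => ?_⟩
  simp only [mem_subgroupOf, Subgroup.coe_mul]
  by_cases hb : (b : Q) ∈ cutImage S t
  · exact Or.inr ⟨hb, fun e => hxA (by simpa using mul_mem (inv_mem hb) e)⟩
  · exact Or.inl ⟨mul_mem_cutImage hp hca S ha₀ hb₀ hne₀ ht b.2 hx hb hxA, hb⟩

/-- Elements outside do not commute with any lift of a central involution. -/
theorem not_commute_lift {s t' : L} (hs : s ∈ (S : Subgroup L)) (hst : s * t ≠ t * s)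
    (ht' : CentralLift S t') : s * t' ≠ t' * s := by
  intro e
  obtain ⟨a, ha, ha2⟩ := exists_sq_ne_one hp hca S ha₀ hb₀ hne₀ ht
  obtain ⟨k, ⟨hk, hkt⟩, rfl⟩ := ha
  have hk' : k * t' = t' * k := by
    by_contra hne
    exact ha2 (by
      rw [← map_mul]
      exact (QuotientGroup.eq_one_iff _).2 (sq_central hp hca S ha₀ hb₀ hne₀ ht' hk hne))
  have hsk := centralizer_lift_comm hp hca S ha₀ hb₀ hne₀ ht' e hk'
  have h1 := inverts hp hca S ha₀ hb₀ hne₀ ht (pr_mem hs) (fun h => hst ((mem_cutImage hs).1 h))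
    ⟨k, ⟨hk, hkt⟩, rfl⟩
  rw [← map_mul, hsk, map_mul, mul_inv_cancel_right] at h1
  exact ha2 (mul_eq_one_iff_eq_inv.2 h1)

theorem centralLift_of_involution {w : Q} (hw : w ∈ cutImage S t) (hw2 : orderOf w = 2) :
    ∃ t', CentralLift S t' ∧ pr t' = w ∧ t' * t = t * t' := by
  obtain ⟨k, ⟨hk, hkt⟩, rfl⟩ := id hw
  refine ⟨k, ⟨hk, fun e => ?_, (QuotientGroup.eq_one_iff _).1 ?_, fun s hs => ?_⟩, rfl,
    mem_centralizer_singleton_iff.1 hkt⟩
  · rw [show pr k = 1 from (QuotientGroup.eq_one_iff k).2 e, orderOf_one] at hw2; omega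
  · show pr (k * k) = 1
    rw [map_mul, ← pow_two, ← hw2, pow_orderOf_eq_one]
  · by_cases hsA : pr s ∈ cutImage S t
    · exact cutImage_comm hp hca S ha₀ hb₀ hne₀ ht hsA hw
    · have h1 := inverts hp hca S ha₀ hb₀ hne₀ ht (pr_mem hs) hsA hw
      rw [show (pr k)⁻¹ = pr k from inv_eq_of_mul_eq_one_right (by
        rw [← pow_two, ← hw2, pow_orderOf_eq_one]), mul_inv_eq_iff_eq_mul] at h1
      exact h1

end

theorem exists_conj_sylow (S S' : Sylow 2 L) {a b : L} (ha : a ∈ (S : Subgroup L))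
    (hb : b ∈ (S : Subgroup L)) (hne : pr a * pr b ≠ pr b * pr a) :
    ∃ a' ∈ (S' : Subgroup L), ∃ b' ∈ (S' : Subgroup L), pr a' * pr b' ≠ pr b' * pr a' := by
  haveI : Fact (Nat.Prime 2) := ⟨Nat.prime_two⟩
  obtain ⟨g, hg⟩ := MulAction.exists_smul_eq L S S'
  have hmem : ∀ s ∈ (S : Subgroup L), g * s * g⁻¹ ∈ (S' : Subgroup L) := fun s hs => by
    rw [← hg, Sylow.coe_subgroup_smul, Subgroup.pointwise_smul_def]; exact ⟨s, hs, rfl⟩
  refine ⟨_, hmem a ha, _, hmem b hb, fun e => hne ?_⟩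
  simp only [map_mul, map_inv] at e
  exact (MulAut.conj (pr g)).injective (by simpa [mul_assoc] using e)

/-- Only one involution lies in the index two subgroup. -/
theorem involution_unique (hp : commutator L = ⊤) (hca : ProperCA L) (S : Sylow 2 L) {a₀ b₀ : L}
    (ha₀ : a₀ ∈ (S : Subgroup L)) (hb₀ : b₀ ∈ (S : Subgroup L))
    (hne₀ : pr a₀ * pr b₀ ≠ pr b₀ * pr a₀) {t : L} (ht : CentralLift S t) {v w : Q}
    (hv : v ∈ cutImage S t) (hv2 : orderOf v = 2) (hw : w ∈ cutImage S t) (hw2 : orderOf w = 2) :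
    v = w := by
  classical
  haveI : Fact (Nat.Prime 2) := ⟨Nat.prime_two⟩
  by_contra hvw
  set P := qSylow S
  obtain ⟨x, hx, hxA⟩ := exists_not_mem hp hca S ha₀ hb₀ hne₀ ht
  have hx2 : orderOf x = 2 := orderOf_eq_prime
    (by rw [pow_two]; exact mul_self_of_not_mem hp hca S ha₀ hb₀ hne₀ ht hx hxA)
    (fun e => hxA (e ▸ one_mem _))
  rcases Cfsg.Agent.S0111.result P (cutImage S t) (cutImage_le S t)
    (relIndex_cutImage hp hca S ha₀ hb₀ hne₀ ht) x hx2 hx hxA with ⟨M, hMn, hM, -⟩ | ⟨g, hg⟩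
  · haveI := hMn
    haveI : Fact (Nat.Prime 2) := ⟨Nat.prime_two⟩
    haveI := isCyclic_of_prime_card (α := Q ⧸ M) (p := 2) hM
    haveI : IsMulCommutative (Q ⧸ M) := IsCyclic.isMulCommutative
    have h1 := hom_eq_one_of_perfect (quot_perfect hp) (QuotientGroup.mk' M)
      (fun a b => IsMulCommutative.is_comm.comm _ _)
    have h2 : M = ⊤ := (Subgroup.eq_top_iff' M).2 fun y => (QuotientGroup.eq_one_iff y).1 (h1 y)
    rw [h2, Subgroup.index_top] at hM
    omega
  -- `x` is conjugate to a central involution; move to a Sylow subgroup centred at `x`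
  set y := g * x * g⁻¹
  have hy2 : orderOf y = 2 := (orderOf_conjBy g x).trans hx2
  obtain ⟨ty, hty, htye, -⟩ := centralLift_of_involution hp hca S ha₀ hb₀ hne₀ ht hg hy2
  have hcomP : ∀ p ∈ (P : Subgroup Q), p * y = y * p := fun p hp' => by
    obtain ⟨s, hs, rfl⟩ := (id hp' : p ∈ (S : Subgroup L).map pr)
    rw [← htye]; exact hty.comm s hs
  set C := Subgroup.centralizer ({x} : Set Q)
  set P1 : Sylow 2 Q := g⁻¹ • P with hP1
  have hP1C : (P1 : Subgroup Q) ≤ C := by
    rw [hP1, Sylow.coe_subgroup_smul, Subgroup.pointwise_smul_def]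
    rintro _ ⟨p, hp', rfl⟩
    refine mem_centralizer_singleton_iff.2 ?_
    show g⁻¹ * p * g⁻¹⁻¹ * x = x * (g⁻¹ * p * g⁻¹⁻¹)
    calc g⁻¹ * p * g⁻¹⁻¹ * x = g⁻¹ * (p * y) * g := by show _ = g⁻¹ * (p * (g * x * g⁻¹)) * g; group
      _ = g⁻¹ * (y * p) * g := by rw [hcomP p hp']
      _ = _ := by show g⁻¹ * ((g * x * g⁻¹) * p) * g = _; group
  have hcen : ∀ a ∈ cutImage S t, orderOf a = 2 → a * x = x * a := fun a ha ha2 => by
    have h1 := inverts hp hca S ha₀ hb₀ hne₀ ht hx hxA ha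
    rw [show a⁻¹ = a from inv_eq_of_mul_eq_one_right (by rw [← pow_two, ← ha2, pow_orderOf_eq_one]),
      mul_inv_eq_iff_eq_mul] at h1
    exact h1.symm
  set V := Subgroup.closure ({x, v, w} : Set Q)
  have hVC : V ≤ C := by
    rw [Subgroup.closure_le]
    rintro a (rfl | rfl | rfl)
    · exact mem_centralizer_singleton_iff.2 rfl
    · exact mem_centralizer_singleton_iff.2 (hcen _ hv hv2)
    · exact mem_centralizer_singleton_iff.2 (hcen _ hw hw2)
  have hVP : V ≤ (P : Subgroup Q) := by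
    rw [Subgroup.closure_le]
    rintro a (rfl | rfl | rfl)
    exacts [hx, cutImage_le S t hv, cutImage_le S t hw]
  obtain ⟨T, hTC, hVT, -, m, hTm⟩ := exists_conj_sylow_above P1 hP1C hVC (P.2.to_le hVP)
  set P2 : Sylow 2 Q := m • P1 with hP2
  have hP2T : (P2 : Subgroup Q) = T := by
    rw [hP2, Sylow.coe_subgroup_smul, Subgroup.pointwise_smul_def, hTm]; rfl
  obtain ⟨S2, hS2⟩ := exists_sylow_lift P2
  have hmem : ∀ a ∈ V, a ∈ (qSylow S2 : Subgroup Q) := fun a ha => by
    rw [hS2, hP2T]; exact hVT ha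
  have hVx : x ∈ V := subset_closure (by simp)
  obtain ⟨t2, ht2S, ht2e⟩ := (hmem x hVx : x ∈ (S2 : Subgroup L).map pr)
  have ht2 : CentralLift S2 t2 := by
    refine ⟨ht2S, fun e => ?_, (QuotientGroup.eq_one_iff _).1 ?_, fun s hs => ?_⟩
    · rw [← ht2e, show pr t2 = 1 from (QuotientGroup.eq_one_iff t2).2 e, orderOf_one] at hx2; omega
    · show pr (t2 * t2) = 1
      rw [map_mul, ht2e, ← pow_two, ← hx2, pow_orderOf_eq_one]
    · rw [ht2e]
      have : pr s ∈ (P2 : Subgroup Q) := hS2 ▸ pr_mem hs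
      exact mem_centralizer_singleton_iff.1 (hTC (hP2T ▸ this))
  obtain ⟨a2, ha2, b2, hb2, hne2⟩ := exists_conj_sylow S S2 ha₀ hb₀ hne₀
  -- one of `v`, `w`, `v w` lies in the index two subgroup of the new Sylow subgroup
  have hvV : v ∈ V := subset_closure (by simp)
  have hwV : w ∈ V := subset_closure (by simp)
  obtain ⟨u, hu, hu2, huA, huV⟩ : ∃ u, u ∈ cutImage S t ∧ orderOf u = 2 ∧ u ∈ cutImage S2 t2 ∧ u ∈ V := by
    by_cases hv' : v ∈ cutImage S2 t2
    · exact ⟨v, hv, hv2, hv', hvV⟩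
    by_cases hw' : w ∈ cutImage S2 t2
    · exact ⟨w, hw, hw2, hw', hwV⟩
    refine ⟨v * w, mul_mem hv hw, orderOf_eq_prime ?_ fun e => hvw ?_,
      mul_mem_cutImage hp hca S2 ha2 hb2 hne2 ht2 (hmem v hvV) (hmem w hwV) hv' hw', mul_mem hvV hwV⟩
    · have hc := cutImage_comm hp hca S ha₀ hb₀ hne₀ ht hv hw
      rw [pow_two, mul_assoc, ← mul_assoc w, ← hc, mul_assoc v w w, ← mul_assoc v v,
        ← pow_two v, ← pow_two w]
      nth_rw 1 [← hv2]
      nth_rw 1 [← hw2]
      rw [pow_orderOf_eq_one, pow_orderOf_eq_one, one_mul]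
    · rw [eq_inv_of_mul_eq_one_left e]
      exact inv_eq_of_mul_eq_one_right (by rw [← pow_two, ← hw2, pow_orderOf_eq_one])
  obtain ⟨tu, htu, htue, -⟩ := centralLift_of_involution hp hca S ha₀ hb₀ hne₀ ht hu hu2
  obtain ⟨tv, ⟨htvS, htv⟩, htve⟩ := (huA : u ∈ Subgroup.map pr _)
  obtain ⟨s, hsS, hse⟩ := (hx : x ∈ (S : Subgroup L).map pr)
  refine not_commute_lift hp hca S ha₀ hb₀ hne₀ ht hsS
    (fun e => hxA (hse ▸ (mem_cutImage hsS).2 e)) htu ?_
  have hz1 : tv⁻¹ * tu ∈ Subgroup.center L := QuotientGroup.eq.1 (htve.trans htue.symm)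
  have hz2 : t2⁻¹ * s ∈ Subgroup.center L := QuotientGroup.eq.1 (ht2e.trans hse.symm)
  have hc : Commute t2 tv := (mem_centralizer_singleton_iff.1 htv).symm
  have h1 : Commute (t2 * (t2⁻¹ * s)) (tv * (tv⁻¹ * tu)) :=
    (hc.mul_right (mem_center_iff.1 hz1 t2)).mul_left (mem_center_iff.1 hz2 _).symm
  rwa [mul_inv_cancel_left, mul_inv_cancel_left] at h1

/-- A nonabelian image of a Sylow 2-subgroup is dihedral. -/
theorem hasDihedralSylow_of_nonabelian (hp : commutator L = ⊤) (hca : ProperCA L) (S : Sylow 2 L)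
    {a₀ b₀ : L} (ha₀ : a₀ ∈ (S : Subgroup L)) (hb₀ : b₀ ∈ (S : Subgroup L))
    (hne₀ : pr a₀ * pr b₀ ≠ pr b₀ * pr a₀) : GW.HasDihedralSylow Q := by
  classical
  haveI : Fact (Nat.Prime 2) := ⟨Nat.prime_two⟩
  obtain ⟨t, ht⟩ := exists_centralLift hp hca S ha₀ hb₀ hne₀
  set P := qSylow S
  set A := cutImage S t
  have hA2 : IsPGroup 2 A := P.2.to_le (cutImage_le S t)
  letI : CommGroup A := { (inferInstance : Group A) with
    mul_comm := fun a b => Subtype.ext (cutImage_comm hp hca S ha₀ hb₀ hne₀ ht a.2 b.2) }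
  have hAc : IsCyclic A := TwoGroups.isCyclic_of_uniqueOrderP_comm hA2
    (TwoGroups.uniqueOrderP_iff_unique_involution.2 fun a b ha hb => Subtype.ext
      (involution_unique hp hca S ha₀ hb₀ hne₀ ht a.2 (by rw [Subgroup.orderOf_coe, ha]) b.2
        (by rw [Subgroup.orderOf_coe, hb])))
  obtain ⟨c, hc⟩ := hAc.exists_generator
  obtain ⟨a, ha, ha2⟩ := exists_sq_ne_one hp hca S ha₀ hb₀ hne₀ ht
  obtain ⟨x, hx, hxA⟩ := exists_not_mem hp hca S ha₀ hb₀ hne₀ ht
  have hidx := relIndex_cutImage hp hca S ha₀ hb₀ hne₀ ht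
  refine ⟨P, orderOf (c : Q), ?_, TwoGroups.nonempty_mulEquiv_dihedral
    (x := (⟨c, cutImage_le S t c.2⟩ : (P : Subgroup Q))) (y := ⟨x, hx⟩) (m := orderOf (c : Q)) ?_ ?_ ?_
    ?_ ?_⟩
  · by_contra hlt
    refine ha2 ?_
    have h1 : orderOf (c : Q) ∣ 2 := by
      have := orderOf_pos (c : Q)
      interval_cases h : orderOf (c : Q) <;> omega
    obtain ⟨i, hi⟩ := mem_zpowers_iff.1 (hc ⟨a, ha⟩)
    have := congrArg Subtype.val hi
    simp only [Subgroup.coe_zpow] at this
    rw [← this, ← zpow_add, ← two_mul, zpow_mul,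
      show (c : Q) ^ (2 : ℤ) = 1 by exact_mod_cast orderOf_dvd_iff_pow_eq_one.1 h1, one_zpow]
  · exact Subgroup.orderOf_mk _ _
  · have h1 := (A.subgroupOf (P : Subgroup Q)).index_mul_card
    rw [show (A.subgroupOf (P : Subgroup Q)).index = 2 from hidx,
      Nat.card_congr (Subgroup.subgroupOfEquivOfLe (cutImage_le S t)).toEquiv] at h1
    rw [← h1, Subgroup.orderOf_coe, ← Nat.card_zpowers,
      show Subgroup.zpowers c = ⊤ from (Subgroup.eq_top_iff' _).2 hc, Subgroup.card_top]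
  · intro hmem
    obtain ⟨i, hi⟩ := mem_zpowers_iff.1 hmem
    refine hxA ?_
    have := congrArg Subtype.val hi
    simp only [Subgroup.coe_zpow] at this
    rw [← this]
    exact zpow_mem c.2 i
  · exact Subtype.ext (by
      rw [SubmonoidClass.coe_pow, pow_two]; exact mul_self_of_not_mem hp hca S ha₀ hb₀ hne₀ ht hx hxA)
  · exact Subtype.ext (inverts hp hca S ha₀ hb₀ hne₀ ht hx hxA c.2)

/-- Lifts of commuting involutions do not commute. -/
theorem lifts_not_commute (hp : commutator L = ⊤) (hca : ProperCA L) (S : Sylow 2 L) {a₀ b₀ : L}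
    (ha₀ : a₀ ∈ (S : Subgroup L)) (hb₀ : b₀ ∈ (S : Subgroup L))
    (hne₀ : pr a₀ * pr b₀ ≠ pr b₀ * pr a₀) {U V : L} (hU : orderOf (pr U) = 2)
    (hV : orderOf (pr V) = 2) (hne : pr U ≠ pr V) (hUV : pr U * pr V = pr V * pr U) :
    U * V ≠ V * U := by
  classical
  haveI : Fact (Nat.Prime 2) := ⟨Nat.prime_two⟩
  intro hcom
  let E := Subgroup.closure ({pr U, pr V} : Set Q)
  have hE : IsPGroup 2 E := by
    intro e
    refine ⟨1, Subtype.ext ?_⟩
    have key : ∀ y ∈ E, y ^ 2 = 1 ∧ y * pr U = pr U * y ∧ y * pr V = pr V * y := by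
      intro y hy
      induction hy using Subgroup.closure_induction with
      | mem y hy =>
        rcases hy with rfl | rfl
        · exact ⟨hU ▸ pow_orderOf_eq_one _, rfl, hUV⟩
        · exact ⟨hV ▸ pow_orderOf_eq_one _, hUV.symm, rfl⟩
      | one => simp
      | mul y z hy hz hy' hz' =>
        refine ⟨?_, (Commute.mul_left hy'.2.1 hz'.2.1), (Commute.mul_left hy'.2.2 hz'.2.2)⟩
        have hyz : Commute y z := by
          have : z ∈ Subgroup.centralizer ({y} : Set Q) := by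
            refine (Subgroup.closure_le _).2 ?_ hz
            rintro q (rfl | rfl)
            · exact mem_centralizer_singleton_iff.2 hy'.2.1.symm
            · exact mem_centralizer_singleton_iff.2 hy'.2.2.symm
          exact (mem_centralizer_singleton_iff.1 this).symm
        rw [hyz.mul_pow, hy'.1, hz'.1, one_mul]
      | inv y hy hy' =>
        exact ⟨by rw [inv_pow, hy'.1, inv_one], Commute.inv_left hy'.2.1, Commute.inv_left hy'.2.2⟩
    simpa using (key e e.2).1
  obtain ⟨R, hR⟩ := hE.exists_le_sylow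
  obtain ⟨T, hT⟩ := exists_sylow_lift R
  obtain ⟨a', ha', b', hb', hne'⟩ := exists_conj_sylow S T ha₀ hb₀ hne₀
  obtain ⟨t, ht⟩ := exists_centralLift hp hca T ha' hb' hne'
  have hmU : pr U ∈ (qSylow T : Subgroup Q) := by rw [hT]; exact hR (subset_closure (by simp))
  have hmV : pr V ∈ (qSylow T : Subgroup Q) := by rw [hT]; exact hR (subset_closure (by simp))
  have hUV2 : orderOf (pr U * pr V) = 2 := orderOf_eq_prime (by
      rw [(show Commute (pr U) (pr V) from hUV).mul_pow]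
      nth_rw 1 [← hU]; nth_rw 1 [← hV]
      rw [pow_orderOf_eq_one, pow_orderOf_eq_one, one_mul])
    fun e => hne (by
      rw [eq_inv_of_mul_eq_one_left e]
      exact inv_eq_of_mul_eq_one_right (by rw [← pow_two, ← hV, pow_orderOf_eq_one]))
  -- a pair `g`, `t'` of commuting elements with `g` outside and `t'` a central lift
  have main : ∀ g t' : L, pr g ∈ (qSylow T : Subgroup Q) → pr g ∉ cutImage T t →
      pr t' ∈ cutImage T t → orderOf (pr t') = 2 → g * t' = t' * g → False := by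
    intro g t' hg hgA ht' ht'2 hgt
    obtain ⟨s, hs, hse⟩ := (hg : pr g ∈ (T : Subgroup L).map pr)
    obtain ⟨tw, htw, htwe, -⟩ := centralLift_of_involution hp hca T ha' hb' hne' ht ht' ht'2
    refine not_commute_lift hp hca T ha' hb' hne' ht hs (fun e => hgA (hse ▸ (mem_cutImage hs).2 e))
      htw ?_
    have hz1 : g⁻¹ * s ∈ Subgroup.center L := QuotientGroup.eq.1 hse.symm
    have hz2 : t'⁻¹ * tw ∈ Subgroup.center L := QuotientGroup.eq.1 htwe.symm
    have h1 : Commute (g * (g⁻¹ * s)) (t' * (t'⁻¹ * tw)) :=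
      ((show Commute g t' from hgt).mul_right (mem_center_iff.1 hz2 g)).mul_left
        (mem_center_iff.1 hz1 _).symm
    rwa [mul_inv_cancel_left, mul_inv_cancel_left] at h1
  by_cases hUA : pr U ∈ cutImage T t
  · refine main V U hmV (fun hVA => hne ?_) hUA hU hcom.symm
    exact involution_unique hp hca T ha' hb' hne' ht hUA hU hVA hV
  · by_cases hVA : pr V ∈ cutImage T t
    · exact main U V hmU hUA hVA hV hcom
    · refine main U (U * V) hmU hUA ?_ ?_ ?_
      · rw [map_mul]; exact mul_mem_cutImage hp hca T ha' hb' hne' ht hmU hmV hUA hVA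
      · rw [map_mul]; exact hUV2
      · rw [mul_assoc, ← hcom]

end CfsgLib.MinimalNonCA
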